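import Cfsg.Agent.H903.Pw.Rho
import Cfsg.Agent.H434.FF.NotRad

/-!
# S2464, `F₄(2)`: the elements of `Ps` whose Levi part fixes a vector (helper824)

`fix_pt` : for 23 of the thirty words `w` of helper612 all elements `wd (w.flatMap tw) * q`, `q ∈ O₂(Ps)`, have a
conjugate in `Pl` outside `O₂(Pl)`.
-/

set_option autoImplicit false

namespace Cfsg.Agent.H824.Fs.FixPt

open Cfsg Cfsg.Lie Cfsg.Agent.FourTwo.Par Cfsg.Agent.FourTwo.Cent Cfsg.Agent.H903.Pw.Rho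
open Cfsg.Agent.FourTwo.Base hiding bar bar_lt
open Cfsg.Agent.SporRec.TwoSp6.Sp (S)
open Cfsg.Agent.H612.Ore (spAct B6)
open Cfsg.Agent.H434.FF (ql)

/-- the elements of `S` trivial on `8^⊥ / 8` -/
def Tv (N : S) : Prop := ∀ v < 64, B6 v 8 = false → spAct.ap N v = v ∨ spAct.ap N v = v ^^^ 8

theorem tab8 : ∀ v < 64, B6 v 8 = false → v ^^^ 8 < 64 ∧ B6 (v ^^^ 8) 8 = false ∧ v ^^^ 8 ^^^ 8 = v ∧ v ^^^ 8 ≠ v := by
  decide +kernel

theorem Tv.one : Tv 1 := fun v hv _ => Or.inl (spAct.one v hv)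

theorem Tv.mul {M N : S} (hM : Tv M) (hN : Tv N) : Tv (M * N) := by
  intro v hv h
  obtain ⟨h1, h2, h3, -⟩ := tab8 v hv h
  rw [spAct.mul M N v hv]
  rcases hN v hv h with e | e
  · rw [e]
    exact hM v hv h
  · rw [e]
    rcases hM _ h1 h2 with e2 | e2
    · exact Or.inr e2
    · rw [h3] at e2
      exact Or.inl e2

theorem Tv.inv {N : S} (hN : Tv N) : Tv N⁻¹ := by
  intro v hv h
  obtain ⟨h1, h2, h3, h4⟩ := tab8 v hv h
  rcases hN v hv h with e | e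
  · left
    have h5 := spAct.inv_ap N hv
    rwa [e] at h5
  · rcases hN _ h1 h2 with e2 | e2
    · exact absurd (spAct.inj N hv h1 (e.trans e2.symm)).symm h4
    · right
      have h5 := spAct.inv_ap N h1
      rwa [e2, h3] at h5

theorem tab_ql : ∀ r < 48, ql r = true → (15 ≤ r ∧ r < 48) ∧ (∀ c ∈ mt r, c < 64) ∧
    ∀ v < 64, B6 v 8 = false → (mt r).foldr stc v = v ∨ (mt r).foldr stc v = v ^^^ 8 := by decide +kernel

/-- the elements of `O₂(Pl)` -/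
theorem rel_ql {g : LL} (hg : g ∈ RG ql) : ∃ N : S, Rel g N ∧ Tv N := by
  refine Subgroup.closure_induction (p := fun g _ => ∃ N : S, Rel g N ∧ Tv N) ?_ ⟨1, Rel.one, Tv.one⟩ ?_ ?_ hg
  · rintro _ ⟨r, hr, hp, rfl⟩
    obtain ⟨h1, h2, h3⟩ := tab_ql r hr hp
    refine ⟨_, rel_x h1.1 h1.2, fun v hv h => ?_⟩
    rw [(ap_T h2 hv).1]
    exact h3 v hv h
  · rintro g h - - ⟨M, hM, hM'⟩ ⟨N, hN, hN'⟩
    exact ⟨_, hM.mul hN, hM'.mul hN'⟩
  · rintro g - ⟨M, hM, hM'⟩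
    exact ⟨_, hM.inv, hM'.inv⟩

theorem tab_qs : ∀ r < 48, Cfsg.Agent.FourTwo.Facts2.qsP r = true → 15 ≤ r ∧ mt r = [] := by decide +kernel

/-- the elements of `O₂(Ps)` -/
theorem rel_qs {g : LL} (hg : g ∈ RG Cfsg.Agent.FourTwo.Facts2.qsP) : Rel g 1 := by
  refine Subgroup.closure_induction (p := fun g _ => Rel g 1) ?_ Rel.one ?_ ?_ hg
  · rintro _ ⟨r, hr, hp, rfl⟩
    obtain ⟨h1, h2⟩ := tab_qs r hr hp
    have h3 := rel_x h1 hr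
    rw [h2] at h3
    exact h3
  · rintro g h - - hg hh
    have h3 := hg.mul hh
    rwa [mul_one] at h3
  · rintro g - hg
    have h3 := hg.inv
    rwa [inv_one] at h3

/-- the check: `c` moves a fixed vector of `w` to `8`; the vector `u` is orthogonal to `8` -/
def ck (w c : List ℕ) (u : ℕ) : Bool :=
  let l := (c.flatMap tw ++ (w.flatMap tw ++ (c.flatMap tw).reverse)).flatMap mt
  (w.all fun j => decide (j < 7)) && (c.all fun j => decide (j < 7)) && (l.all fun d => decide (d < 64)) &&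
    decide (u < 64) && !B6 u 8 && Nat.beq (l.foldr stc 8) 8 && !Nat.beq (l.foldr stc u) u && !Nat.beq (l.foldr stc u) (u ^^^ 8)

theorem of_ck {w c : List ℕ} {u : ℕ} (h : ck w c u = true) {q : LL} (hq : q ∈ RG Cfsg.Agent.FourTwo.Facts2.qsP) :
    ∃ y : LL, y * (wd (w.flatMap tw) * q) * y⁻¹ ∈ Pl ∧ y * (wd (w.flatMap tw) * q) * y⁻¹ ∉ RG ql := by
  unfold ck at h
  simp only [Bool.and_eq_true, List.all_eq_true, decide_eq_true_eq, Bool.not_eq_true'] at h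
  obtain ⟨⟨⟨⟨⟨⟨⟨h1, h2⟩, h3⟩, h4⟩, h5⟩, h6⟩, h7⟩, h8⟩ := h
  have hw := flat_bd h1
  have hc := flat_bd h2
  have hc' : ∀ r ∈ (c.flatMap tw).reverse, 15 ≤ r ∧ r < 48 := fun r hr => hc r (List.mem_reverse.1 hr)
  have hR : Rel (wd (c.flatMap tw) * (wd (w.flatMap tw) * q) * (wd (c.flatMap tw))⁻¹)
      (T ((c.flatMap tw ++ (w.flatMap tw ++ (c.flatMap tw).reverse)).flatMap mt)) := by
    rw [← mw_eq_T, mw_append, mw_append, ← Cfsg.Agent.FourTwo.Facts2.wd_reverse]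
    have h9 := ((rel_wd hc).mul ((rel_wd hw).mul (rel_qs hq))).mul (rel_wd hc')
    rwa [mul_one, mul_assoc (mw _)] at h9
  refine ⟨wd (c.flatMap tw), ?_, ?_⟩
  · rw [← cent_long, Subgroup.mem_centralizer_singleton_iff]
    have h9 := hR.2 8 (by norm_num)
    rw [(ap_T h3 (by norm_num : 8 < 64)).1, Nat.eq_of_beq_eq_true h6] at h9
    have e : wv 8 = x (bs 3) := wv_pow 3 (by norm_num)
    rw [e] at h9
    rcases h9 with h9 | h9
    · exact mul_inv_eq_iff_eq_mul.1 h9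
    · exact absurd h9 (not_conj_bs (by norm_num) _)
  · intro h9
    obtain ⟨N, hN, hN'⟩ := rel_ql h9
    have h11 := hN' u h4 h5
    rw [hN.unique hR, (ap_T h3 h4).1] at h11
    rcases h11 with h11 | h11
    · rw [h11] at h7
      simp at h7
    · rw [h11] at h8
      simp at h8

/-- the six words without fixed vector -/
def NF : List (List ℕ) := [[5, 4, 3, 2, 1, 0], [6, 4, 3, 2, 1, 0], [6, 5, 4, 2, 1, 0], [6, 5, 4, 3, 2, 1, 0],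
  [4, 3, 2, 6, 1, 2, 3, 1, 2, 0, 1, 0], [6, 4, 2, 3, 1, 2, 6, 4, 5, 3, 4, 0, 1, 2, 3, 0, 1, 2, 0, 1, 0]]

/-- the certificates -/
def cert : List (List ℕ × List ℕ × ℕ) := [
  ([0], [2, 1], 16),
  ([1, 0], [2, 1, 6, 2], 2),
  ([2, 0], [0, 1], 16),
  ([2, 1, 0], [2, 1, 3, 2, 4, 3], 2),
  ([3, 1, 0], [2, 1, 6, 2], 2),
  ([4, 2, 0], [0, 1], 4),
  ([6, 5, 3], [], 2),
  ([3, 2, 1, 0], [2, 1, 3, 2, 4, 3, 5, 4], 2),
  ([4, 2, 1, 0], [2, 1, 3, 2, 4, 3], 2),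
  ([4, 3, 1, 0], [2, 1, 6, 2], 2),
  ([5, 3, 1, 0], [2, 1, 6, 2], 2),
  ([6, 3, 2, 1], [2, 1, 3, 2, 4, 3, 5, 4], 2),
  ([6, 5, 3, 2], [0, 1], 2),
  ([4, 3, 2, 1, 0], [0, 2, 3, 4, 6, 2, 1, 3, 2, 6], 2),
  ([5, 3, 2, 1, 0], [2, 1, 3, 2, 4, 3, 5, 4], 2),
  ([6, 3, 2, 1, 0], [2, 1, 3, 2, 4, 3, 5, 4], 2),
  ([5, 4, 2, 1, 0], [0, 2, 3, 4, 5, 6, 2, 1, 3, 2, 4, 3], 2),
  ([6, 4, 3, 1, 0], [2, 1, 6, 2], 2),
  ([6, 5, 4, 3, 2], [0, 1], 2),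
  ([6, 5, 4, 3, 1, 0], [2, 1, 6, 2], 2),
  ([6, 2, 3, 1, 2, 1], [2, 1, 3, 2, 4, 3, 5, 4], 2),
  ([6, 5, 2, 3, 1, 2, 1], [2, 1, 3, 2, 4, 3, 5, 4], 2),
  ([6, 5, 4, 2, 3, 1, 2, 1], [0, 2, 3, 4, 5, 6, 2, 1, 3, 2, 4, 3, 6, 2, 1, 0], 2)]

theorem cert_all : (cert.all fun p => ck p.1 p.2.1 p.2.2) = true := by decide +kernel

theorem cert_mem : (Cfsg.Agent.H612.Ore.rws.all fun w => w.isEmpty || NF.contains w || (cert.map Prod.fst).contains w) = true := by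
  decide +kernel

/-- **[FIX]** -/
theorem fix_pt {w : List ℕ} (hw : w ∈ Cfsg.Agent.H612.Ore.rws) (h1 : w ≠ []) (h2 : w ∉ NF) {q : LL} (hq : q ∈ RG Cfsg.Agent.FourTwo.Facts2.qsP) :
    ∃ y : LL, y * (wd (w.flatMap tw) * q) * y⁻¹ ∈ Pl ∧ y * (wd (w.flatMap tw) * q) * y⁻¹ ∉ RG ql := by
  have h3 := (List.all_eq_true.1 cert_mem) w hw
  rw [Bool.or_eq_true, Bool.or_eq_true] at h3
  rcases h3 with (h3 | h3) | h3
  · exact absurd (List.isEmpty_iff.1 h3) h1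
  · exact absurd (List.contains_iff_mem.1 h3) h2
  · rw [List.contains_iff_mem, List.mem_map] at h3
    obtain ⟨p, hp, rfl⟩ := h3
    exact of_ck ((List.all_eq_true.1 cert_all) p hp) hq

end Cfsg.Agent.H824.Fs.FixPt
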